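import Mathlib
import Cfsg.Agent.Coprime.External
import Cfsg.Agent.PGroup.Normal

/-! An element of order three whose commutator on a module of exponent two is a four-group, and the
odd `p`-groups it normalizes. -/

open scoped commutatorElement

namespace CfsgLib.FourCommutator

variable {Γ : Type*} [Group Γ] {V : Type*} [AddCommGroup V] [DistribMulAction Γ V]

/-- The commutator of `g` on the module. -/
def moved (g : Γ) : AddSubgroup V := (DistribSMul.toAddMonoidHom V g - AddMonoidHom.id V).range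

theorem mem_moved {g : Γ} {w : V} : w ∈ moved g ↔ ∃ v, g • v - v = w := Iff.rfl

theorem sub_mem_moved (g : Γ) (v : V) : g • v - v ∈ moved g := ⟨v, rfl⟩

theorem smul_mem_moved {g c : Γ} (h : c * g = g * c) {w : V} (hw : w ∈ moved g) : c • w ∈ moved g := by
  obtain ⟨v, rfl⟩ := mem_moved.1 hw
  exact mem_moved.2 ⟨c • v, by rw [smul_sub, smul_smul, smul_smul, h]⟩

theorem moved_conj (c g : Γ) : moved (V := V) (c * g * c⁻¹) =
    (moved g).map (DistribSMul.toAddMonoidHom V c) := by
  ext w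
  rw [AddSubgroup.mem_map]
  constructor
  · intro hw
    obtain ⟨v, rfl⟩ := mem_moved.1 hw
    refine ⟨g • c⁻¹ • v - c⁻¹ • v, sub_mem_moved _ _, ?_⟩
    show c • (g • c⁻¹ • v - c⁻¹ • v) = _
    rw [smul_sub, smul_inv_smul, smul_smul, smul_smul]
  · rintro ⟨u, hu, rfl⟩
    obtain ⟨v, rfl⟩ := mem_moved.1 hu
    refine mem_moved.2 ⟨c • v, ?_⟩
    show _ = c • (g • v - v)
    rw [smul_sub, mul_smul, mul_smul, inv_smul_smul]

theorem moved_inv (g : Γ) : moved (V := V) g⁻¹ = moved g := by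
  refine le_antisymm ?_ ?_
  · intro w hw
    obtain ⟨v, rfl⟩ := mem_moved.1 hw
    have h := neg_mem (sub_mem_moved g (g⁻¹ • v))
    rwa [smul_inv_smul, neg_sub] at h
  · intro w hw
    obtain ⟨v, rfl⟩ := mem_moved.1 hw
    have h := neg_mem (sub_mem_moved g⁻¹ (g • v))
    rwa [inv_smul_smul, neg_sub] at h

theorem moved_mul_le (a b : Γ) : moved (V := V) (a * b) ≤ moved a ⊔ moved b := by
  intro w hw
  obtain ⟨v, rfl⟩ := mem_moved.1 hw
  rw [show (a * b) • v - v = (a • b • v - b • v) + (b • v - v) by rw [mul_smul]; abel]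
  exact AddSubgroup.add_mem_sup (sub_mem_moved _ _) (sub_mem_moved _ _)

theorem card_sup_le (A B : AddSubgroup V) [Finite V] : Nat.card ↥(A ⊔ B) ≤ Nat.card A * Nat.card B := by
  rw [← Nat.card_prod]
  refine Nat.card_le_card_of_surjective
    (fun x : A × B => (⟨x.1 + x.2, AddSubgroup.add_mem_sup x.1.2 x.2.2⟩ : ↥(A ⊔ B))) ?_
  rintro ⟨w, hw⟩
  obtain ⟨a, ha, b, hb, rfl⟩ := AddSubgroup.mem_sup.1 hw
  exact ⟨(⟨a, ha⟩, ⟨b, hb⟩), rfl⟩

theorem smul_eq_of_two (h2 : ∀ v : V, v + v = 0) (v : V) {m : ℕ} (hm : Odd m) : m • v = v := by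
  obtain ⟨k, rfl⟩ := hm
  rw [succ_nsmul, mul_comm, mul_nsmul, two_nsmul, h2, zero_add] <;> simp [two_nsmul, h2]

/-- An element of odd order fixes nothing non-zero in its commutator. -/
theorem eq_zero_of_mem_moved (h2 : ∀ v : V, v + v = 0) {g : Γ} {m : ℕ} (hm : Odd m) (hg : g ^ m = 1) {w : V}
    (hw : w ∈ moved g) (hfix : g • w = w) : w = 0 := by
  obtain ⟨v, rfl⟩ := mem_moved.1 hw
  have h : ∀ i : ℕ, g ^ i • v = v + i • (g • v - v) := by
    intro i
    induction i with
    | zero => simp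
    | succ i ih =>
      have h1 : g • (i • (g • v - v)) = i • (g • v - v) := by
        rw [← DistribSMul.toAddMonoidHom_apply, map_nsmul, DistribSMul.toAddMonoidHom_apply, hfix]
      rw [pow_succ', mul_smul, ih, smul_add, h1, succ_nsmul]
      abel
  have h1 := h m
  rw [hg, one_smul, smul_eq_of_two h2 _ hm] at h1
  exact sub_eq_zero.2 (by simpa using h1.symm)

theorem eq_one_of_moved [FaithfulSMul Γ V] {g : Γ} (h : ∀ w ∈ moved (V := V) g, w = 0) : g = 1 :=
  eq_of_smul_eq_smul fun v : V => by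
    rw [one_smul, ← sub_eq_zero]
    exact h _ (sub_mem_moved g v)

/-- A `p`-element, `p ≥ 5`, fixes pointwise every set of at most four vectors which it preserves. -/
theorem fix_of_card_le_four [Finite Γ] {p : ℕ} [hp : Fact p.Prime] (hp5 : 5 ≤ p) {R : Subgroup Γ}
    (hR : IsPGroup p R) {z : Γ} (hz : z ∈ R) {W : AddSubgroup V} [Finite V] (hW : Nat.card W ≤ 4)
    (hzW : ∀ w ∈ W, z • w ∈ W) {w : V} (hw : w ∈ W) : z • w = w := by
  have hpg : IsPGroup p (Subgroup.zpowers z) := hR.to_le (Subgroup.zpowers_le.2 hz)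
  have horb : MulAction.orbit (Subgroup.zpowers z) w ⊆ (W : Set V) := by
    rintro _ ⟨⟨g, hg⟩, rfl⟩
    obtain ⟨i, rfl⟩ := mem_powers_iff_mem_zpowers.2 hg
    show z ^ i • w ∈ W
    induction i with
    | zero => simpa using hw
    | succ i ih => rw [pow_succ', mul_smul]; exact hzW _ (ih (Subgroup.npow_mem_zpowers z i))
  obtain ⟨k, hk⟩ := hpg.card_orbit w
  have hle : Nat.card (MulAction.orbit (Subgroup.zpowers z) w) ≤ Nat.card W :=
    Nat.card_mono (Set.toFinite _) horb
  have hk0 : k = 0 := by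
    by_contra h
    have : p ≤ p ^ k := Nat.le_self_pow h p
    omega
  rw [hk0, pow_zero] at hk
  haveI := (Nat.card_eq_one_iff_unique.1 hk).1
  exact congrArg Subtype.val (Subsingleton.elim
    (⟨z • w, ⟨z, Subgroup.mem_zpowers z⟩, rfl⟩ : MulAction.orbit (Subgroup.zpowers z) w)
    ⟨w, MulAction.mem_orbit_self w⟩)

theorem not_sq_dvd_card_GL {p d : ℕ} (hp : p.Prime) (hp5 : 5 ≤ p) (hd : d ≤ 4) :
    ¬ p ^ 2 ∣ Nat.card (GL (Fin d) (ZMod 2)) := by
  intro h
  have h1 : p ^ 2 ∣ 20160 := by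
    refine h.trans ?_
    rw [Matrix.card_GL_field]
    interval_cases d <;> simp [Fin.prod_univ_succ, ZMod.card]
  have h3 : (p ^ 2).Coprime 576 := by
    refine Nat.Coprime.pow_left 2 ((Nat.Prime.coprime_iff_not_dvd hp).2 fun h4 => ?_)
    rw [show (576 : ℕ) = 2 ^ 6 * 3 ^ 2 by norm_num] at h4
    rcases hp.dvd_mul.1 h4 with h5 | h5 <;> have h6 := Nat.le_of_dvd (by norm_num) (hp.dvd_of_dvd_pow h5) <;> omega
  have h5 : p ^ 2 ∣ 35 := h3.dvd_of_dvd_mul_left (by norm_num; exact h1)
  have h6 : p ^ 2 ≤ 35 := Nat.le_of_dvd (by norm_num) h5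
  have h7 : p ≤ 5 := by nlinarith
  obtain rfl : p = 5 := by omega
  norm_num at h5

/-- A `p`-group, `p ≥ 5`, acts on a group of exponent two with at most sixteen elements through a
group of order at most `p`. -/
theorem card_image_le [Finite Γ] [Finite V] (h2 : ∀ v : V, v + v = 0) {p : ℕ} [hp : Fact p.Prime]
    (hp5 : 5 ≤ p) {R : Subgroup Γ} (hR : IsPGroup p R) {U : AddSubgroup V} (hU : Nat.card U ≤ 16)
    (hinv : ∀ g ∈ R, ∀ u ∈ U, g • u ∈ U) :
    ∃ (H : Type) (_ : Group H) (_ : Finite H) (ρ : R →* H), Nat.card H ≤ p ∧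
      ∀ g : R, ρ g = 1 → ∀ u ∈ U, (g : Γ) • u = u := by
  classical
  letI : Module (ZMod 2) U := AddCommGroup.zmodModule fun u => by rw [two_nsmul]; exact Subtype.ext (h2 u)
  let d := Module.finrank (ZMod 2) U
  let b := Module.finBasis (ZMod 2) U
  let φ : R →* Module.End (ZMod 2) U :=
    { toFun := fun g =>
        (AddMonoidHom.mk' (fun u : U => (⟨(g : Γ) • (u : V), hinv g g.2 u u.2⟩ : U))
          fun x z => Subtype.ext (smul_add (g : Γ) (x : V) z)).toZModLinearMap 2
      map_one' := LinearMap.ext fun u => Subtype.ext (show ((1 : R) : Γ) • (u : V) = u by simp)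
      map_mul' := fun g h => LinearMap.ext fun u => Subtype.ext
        (show ((g * h : R) : Γ) • (u : V) = (g : Γ) • (h : Γ) • (u : V) by rw [Subgroup.coe_mul, mul_smul]) }
  let ρ₀ : R →* GL (Fin d) (ZMod 2) :=
    (Units.mapEquiv (LinearMap.toMatrixAlgEquiv b).toMulEquiv).toMonoidHom.comp φ.toHomUnits
  have hd : d ≤ 4 := by
    have h1 := Module.natCard_eq_pow_finrank (K := ZMod 2) (V := U)
    rw [Nat.card_zmod] at h1
    by_contra h
    push Not at h
    have : 2 ^ 5 ≤ 2 ^ d := Nat.pow_le_pow_right (by norm_num) h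
    rw [h1] at hU
    change 2 ^ d ≤ 16 at hU
    omega
  refine ⟨ρ₀.range, inferInstance, inferInstance, ρ₀.rangeRestrict, ?_, ?_⟩
  · obtain ⟨e, he⟩ := (hR.of_surjective _ ρ₀.rangeRestrict_surjective).exists_card_eq
    rw [he]
    rcases Nat.lt_or_ge e 2 with he2 | he2
    · exact (Nat.pow_le_pow_right hp.out.pos (Nat.lt_succ_iff.1 he2)).trans (pow_one p).le
    · exact absurd (((pow_dvd_pow p he2).trans (dvd_of_eq he.symm)).trans
        (Subgroup.card_subgroup_dvd_card ρ₀.range)) (not_sq_dvd_card_GL hp.out hp5 hd)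
  · intro g hg u hu
    have h1 : ρ₀ g = 1 := congrArg Subtype.val hg
    have h2' : φ g = 1 := (LinearMap.toMatrixAlgEquiv b).injective (by
      rw [map_one]; exact congrArg Units.val h1)
    exact congrArg Subtype.val (LinearMap.congr_fun h2' ⟨u, hu⟩)

variable [Finite Γ] [Finite V] [FaithfulSMul Γ V] {p : ℕ} [hp : Fact p.Prime]

/-- The subgroup of `R` generated by its commutators with `x` is abelian of order at most `p`. -/
theorem relIndex_fix_le (h2 : ∀ v : V, v + v = 0) (hp5 : 5 ≤ p) {x : Γ} (hx : x ^ 3 = 1)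
    (hW : Nat.card (moved (V := V) x) ≤ 4) {R : Subgroup Γ} (hR : IsPGroup p R)
    (hxR : ∀ f ∈ R, x * f * x⁻¹ ∈ R) {C : Subgroup Γ}
    (hC : ∀ g : Γ, (∀ w ∈ moved (V := V) x, g • w = w) → g ∈ C) {E : Subgroup Γ} (hE : E ≤ R) :
    C.relIndex E ≤ p := by
  classical
  have hoddp : Odd p := hp.out.odd_of_ne_two (by omega)
  have hodd : ∀ g ∈ R, ∃ m, Odd m ∧ g ^ m = 1 := fun g hg => by
    obtain ⟨k, hk⟩ := hR ⟨g, hg⟩
    exact ⟨p ^ k, hoddp.pow, congrArg Subtype.val hk⟩
  let S : Set Γ := {z | ∃ f ∈ R, f * x * f⁻¹ * x⁻¹ = z}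
  let D := Subgroup.closure S
  have hDR : D ≤ R := (Subgroup.closure_le _).2 (by
    rintro _ ⟨f, hf, rfl⟩
    rw [SetLike.mem_coe, mul_assoc f, mul_assoc f]
    exact mul_mem hf (hxR _ (inv_mem hf)))
  have hDconj : ∀ f ∈ R, ∀ z ∈ D, f * z * f⁻¹ ∈ D := by
    intro f hf z hz
    induction hz using Subgroup.closure_induction with
    | mem z hz =>
      obtain ⟨g, hg, rfl⟩ := hz
      rw [show f * (g * x * g⁻¹ * x⁻¹) * f⁻¹ =
        (f * g * x * (f * g)⁻¹ * x⁻¹) * (f * x * f⁻¹ * x⁻¹)⁻¹ by group]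
      exact mul_mem (Subgroup.subset_closure ⟨f * g, mul_mem hf hg, rfl⟩)
        (inv_mem (Subgroup.subset_closure ⟨f, hf, rfl⟩))
    | one => rw [mul_one, mul_inv_cancel]; exact one_mem D
    | mul a b _ _ ha hb =>
      rw [show f * (a * b) * f⁻¹ = f * a * f⁻¹ * (f * b * f⁻¹) by group]
      exact mul_mem ha hb
    | inv a _ ha =>
      rw [show f * a⁻¹ * f⁻¹ = (f * a * f⁻¹)⁻¹ by group]
      exact inv_mem ha
  have hxD : ∀ z ∈ D, x * z * x⁻¹ ∈ D := by
    intro z hz
    induction hz using Subgroup.closure_induction with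
    | mem z hz =>
      obtain ⟨g, hg, rfl⟩ := hz
      refine Subgroup.subset_closure ⟨x * g * x⁻¹, hxR g hg, ?_⟩
      group
    | one => rw [mul_one, mul_inv_cancel]; exact one_mem D
    | mul a b _ _ ha hb =>
      rw [show x * (a * b) * x⁻¹ = x * a * x⁻¹ * (x * b * x⁻¹) by group]
      exact mul_mem ha hb
    | inv a _ ha =>
      rw [show x * a⁻¹ * x⁻¹ = (x * a * x⁻¹)⁻¹ by group]
      exact inv_mem ha
  -- every element is a commutator part times an element commuting with `x`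
  have hdec : ∀ f ∈ R, ∃ z ∈ D, ∃ c ∈ R, c * x = x * c ∧ f = z * c := by
    intro f hf
    have hxpow : ∀ (i : ℕ), ∀ g ∈ R, x ^ i * g * (x ^ i)⁻¹ ∈ R := by
      intro i
      induction i with
      | zero => intro g hg; simpa using hg
      | succ i ih =>
        intro g hg
        rw [pow_succ', show x * x ^ i * g * (x * x ^ i)⁻¹ = x * (x ^ i * g * (x ^ i)⁻¹) * x⁻¹ by group]
        exact hxR _ (ih g hg)
    have hnorm : x ∈ Subgroup.normalizer (R : Set Γ) := by
      rw [Subgroup.mem_normalizer_iff]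
      refine fun g => ⟨hxR g, fun hg => ?_⟩
      have h3 := hxpow 2 _ hg
      rwa [show x ^ 2 * (x * g * x⁻¹) * (x ^ 2)⁻¹ = x ^ 3 * g * (x ^ 3)⁻¹ by group, hx, one_mul, inv_one,
        mul_one] at h3
    let φ : Subgroup.zpowers x →* MulAut R :=
      (Subgroup.normalizerMonoidHom R).comp (Subgroup.inclusion (Subgroup.zpowers_le.2 hnorm))
    have hφ : ∀ (a : Subgroup.zpowers x) (g : R), ((φ a g : R) : Γ) = a * g * (a : Γ)⁻¹ := fun a g => rfl
    have hcop : (Nat.card (Subgroup.zpowers x)).Coprime (Nat.card R) := by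
      obtain ⟨e, he⟩ := hR.exists_card_eq
      rw [Nat.card_zpowers, he]
      exact Nat.Coprime.pow_right e (Nat.Coprime.coprime_dvd_left (orderOf_dvd_of_pow_eq_one hx)
        ((Nat.coprime_primes Nat.prime_three hp.out).2 (by omega)))
    have hzp : ∀ a ∈ Subgroup.zpowers x, ∃ i : ℕ, x ^ i = a := fun a ha => mem_powers_iff_mem_zpowers.2 ha
    have hDx : ∀ (i : ℕ), ∀ g ∈ D, x ^ i * g * (x ^ i)⁻¹ ∈ D := by
      intro i
      induction i with
      | zero => intro g hg; simpa using hg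
      | succ i ih =>
        intro g hg
        rw [pow_succ', show x * x ^ i * g * (x * x ^ i)⁻¹ = x * (x ^ i * g * (x ^ i)⁻¹) * x⁻¹ by group]
        exact hxD _ (ih g hg)
    obtain ⟨⟨n, hnR⟩, hn, hfix⟩ := CfsgLib.Coprime.exists_fixed_mul_of_action φ hcop
      (Or.inl inferInstance) (D.subgroupOf R) (fun a g hg => by
        obtain ⟨i, hi⟩ := hzp a a.2
        rw [Subgroup.mem_subgroupOf, hφ, ← hi]
        exact hDx i _ hg) (g := ⟨f, hf⟩) (fun a => by
        obtain ⟨i, hi⟩ := hzp a a.2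
        rw [Subgroup.mem_subgroupOf, Subgroup.coe_mul, hφ, ← hi]
        show f⁻¹ * (x ^ i * f * (x ^ i)⁻¹) ∈ D
        clear hi
        induction i with
        | zero => simp
        | succ i ih =>
          rw [show f⁻¹ * (x ^ (i + 1) * f * (x ^ (i + 1))⁻¹) =
            (f⁻¹ * x * f⁻¹⁻¹ * x⁻¹) * (x * (f⁻¹ * (x ^ i * f * (x ^ i)⁻¹)) * x⁻¹) by
              rw [pow_succ']; group]
          exact mul_mem (Subgroup.subset_closure ⟨f⁻¹, inv_mem hf, rfl⟩) (hxD _ ih))
    have hc := congrArg Subtype.val (hfix ⟨x, Subgroup.mem_zpowers x⟩)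
    rw [hφ] at hc
    simp only [Subgroup.coe_mul] at hc
    refine ⟨f * n * n⁻¹ * (f * n)⁻¹ , ?_, f * n, mul_mem hf hnR, ?_, by group⟩
    · exact hDconj _ (mul_mem hf hnR) _ (inv_mem hn)
    · exact (mul_inv_eq_iff_eq_mul.1 hc).symm
  -- elements of the centre fixed by `x`
  have hfix1 : ∀ z ∈ D, (∀ d ∈ D, z * d = d * z) → z * x = x * z → z = 1 := by
    intro z hz hzc hzx
    let F₀ : AddSubgroup V :=
      { carrier := {v | z • v = v}
        zero_mem' := smul_zero z
        add_mem' := fun {a b} ha hb => by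
          show z • (a + b) = a + b
          rw [smul_add, ha, hb]
        neg_mem' := fun {a} ha => by
          show z • -a = -a
          rw [smul_neg, ha] }
    have hWF : moved x ≤ F₀ := fun w hw =>
      fix_of_card_le_four hp5 hR (hDR hz) hW (fun w hw => smul_mem_moved hzx hw) hw
    have hDF : ∀ d ∈ D, ∀ u ∈ F₀, d • u ∈ F₀ := fun d hd u hu => by
      show z • d • u = d • u
      rw [smul_smul, hzc d hd, mul_smul, show z • u = u from hu]
    have hgen : ∀ d ∈ D, ∀ v : V, d • v - v ∈ F₀ := by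
      intro d hd
      induction hd using Subgroup.closure_induction with
      | mem d hd =>
        obtain ⟨f, hf, rfl⟩ := hd
        intro v
        obtain ⟨e, he, c, hc, hcx, rfl⟩ := hdec f hf
        have h1 : moved (V := V) (e * c * x * (e * c)⁻¹ * x⁻¹) ≤ F₀ := by
          refine (moved_mul_le _ _).trans (sup_le ?_ ?_)
          · rw [show e * c * x * (e * c)⁻¹ = e * (c * x * c⁻¹) * e⁻¹ by group, hcx, mul_inv_cancel_right,
              moved_conj]
            rintro _ ⟨w, hw, rfl⟩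
            exact hDF e he w (hWF hw)
          · rw [moved_inv]; exact hWF
        exact h1 (sub_mem_moved _ v)
      | one => intro v; rw [one_smul, sub_self]; exact zero_mem _
      | mul a b ha' _ ha hb =>
        intro v
        rw [show (a * b) • v - v = a • (b • v - v) + (a • v - v) by rw [mul_smul, smul_sub]; abel]
        exact add_mem (hDF a ha' _ (hb v)) (ha v)
      | inv a ha' ha =>
        intro v
        have h1 := neg_mem (ha (a⁻¹ • v))
        rwa [smul_inv_smul, neg_sub] at h1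
    obtain ⟨m, hm, hzm⟩ := hodd z (hDR hz)
    refine eq_one_of_moved (V := V) fun w hw => ?_
    obtain ⟨v, rfl⟩ := mem_moved.1 hw
    exact eq_zero_of_mem_moved h2 hm hzm (sub_mem_moved z v) (hgen z hz v)
  -- central elements are short commutators
  have hshort : ∀ K : Subgroup Γ, K ≤ D → (∀ k ∈ K, ∀ d ∈ D, k * d = d * k) →
      (∀ k ∈ K, x * k * x⁻¹ ∈ K) → ∀ k ∈ K, Nat.card (moved (V := V) k) ≤ 16 := by
    intro K hKD hKc hKx k hk
    let δ : K → K := fun a => ⟨(a : Γ)⁻¹ * (x * a * x⁻¹), mul_mem (inv_mem a.2) (hKx a a.2)⟩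
    have hδ : Function.Injective δ := fun a b hab => by
      have h1 : (a : Γ)⁻¹ * (x * a * x⁻¹) = (b : Γ)⁻¹ * (x * b * x⁻¹) := congrArg Subtype.val hab
      have hm : (b : Γ) * (a : Γ)⁻¹ ∈ K := mul_mem b.2 (inv_mem a.2)
      refine Subtype.ext (mul_inv_eq_one.1 (hfix1 _ (hKD hm) (hKc _ hm) ?_)).symm
      have h5 : x * ((b : Γ) * (a : Γ)⁻¹) * x⁻¹ = (b : Γ) * (a : Γ)⁻¹ := by
        calc x * ((b : Γ) * (a : Γ)⁻¹) * x⁻¹ = (x * b * x⁻¹) * (x * a * x⁻¹)⁻¹ := by group
          _ = (b : Γ) * ((b : Γ)⁻¹ * (x * b * x⁻¹)) * (x * a * x⁻¹)⁻¹ := by group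
          _ = _ := by rw [← h1]; group
      exact (mul_inv_eq_iff_eq_mul.1 h5).symm
    obtain ⟨a, ha⟩ := Finite.injective_iff_surjective.1 hδ ⟨k, hk⟩
    have h1 : (a : Γ)⁻¹ * x * ((a : Γ)⁻¹)⁻¹ * x⁻¹ = k := by
      rw [← show (a : Γ)⁻¹ * (x * a * x⁻¹) = k from congrArg Subtype.val ha]; group
    rw [← h1]
    refine (AddSubgroup.card_le_of_le (moved_mul_le (V := V) _ _)).trans ((card_sup_le _ _).trans ?_)
    rw [moved_conj, moved_inv]
    exact Nat.mul_le_mul ((Nat.card_image_le (Set.toFinite _)).trans hW) hW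
  have hDp : IsPGroup p D := hR.to_le hDR
  haveI : Group.IsNilpotent D := hDp.isNilpotent
  -- `D` is abelian
  have hab : ∀ a ∈ D, ∀ b ∈ D, a * b = b * a := by
    by_contra hne
    have hDD : commutator D ≠ ⊥ := by
      intro h
      rw [commutator_eq_bot_iff_center_eq_top] at h
      exact hne fun a ha b hb =>
        (congrArg Subtype.val (Subgroup.mem_center_iff.1 (h.ge (Subgroup.mem_top ⟨a, ha⟩)) ⟨b, hb⟩)).symm
    haveI : Nontrivial (commutator D) := (Subgroup.nontrivial_iff_ne_bot _).2 hDD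
    obtain ⟨k, hk, hk1⟩ : ∃ k : D, k ∈ commutator D ⊓ Subgroup.center D ∧ k ≠ 1 := by
      haveI := (Subgroup.nontrivial_iff_ne_bot _).2 (CfsgLib.PGroup.inf_center_ne_bot hDp (commutator D) hDD)
      obtain ⟨k, hk⟩ := exists_ne (1 : ↥(commutator D ⊓ Subgroup.center D))
      exact ⟨k, k.2, fun h => hk (Subtype.ext h)⟩
    let K := (commutator D ⊓ Subgroup.center D).map D.subtype
    have hkk := hshort K (Subgroup.map_subtype_le _) (by
        rintro _ ⟨a, ha, rfl⟩ d hd
        exact (congrArg Subtype.val (Subgroup.mem_center_iff.1 ha.2 ⟨d, hd⟩)).symm) (by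
        rintro _ ⟨a, ha, rfl⟩
        let e : D →* D := MonoidHom.mk' (fun d => ⟨x * d * x⁻¹, hxD d d.2⟩)
          fun u v => Subtype.ext (by simp [mul_assoc])
        have he : Function.Injective e := fun u v h => Subtype.ext (by simpa [e] using congrArg Subtype.val h)
        let e' : D ≃* D := MulEquiv.ofBijective e ⟨he, Finite.injective_iff_surjective.1 he⟩
        exact ⟨e' a, ⟨(Subgroup.characteristic_iff_map_eq.1 (inferInstance : (commutator D).Characteristic) e').le
          ⟨a, ha.1, rfl⟩, (Subgroup.characteristic_iff_map_eq.1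
            (inferInstance : (Subgroup.center D).Characteristic) e').le ⟨a, ha.2, rfl⟩⟩, rfl⟩) _ ⟨k, hk, rfl⟩
    obtain ⟨H, _, _, ρ, hH, hker⟩ := card_image_le h2 hp5 hDp hkk (fun g hg u hu =>
      smul_mem_moved (show g * (k : Γ) = k * g from
        congrArg Subtype.val (Subgroup.mem_center_iff.1 hk.2 ⟨g, hg⟩)) hu)
    have hρab : commutator D ≤ ρ.ker := by
      rw [commutator_def, Subgroup.commutator_le]
      intro a _ b _
      rw [MonoidHom.mem_ker, map_commutatorElement, commutatorElement_eq_one_iff_mul_comm]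
      obtain ⟨j, hj⟩ := (hDp.of_surjective _ ρ.rangeRestrict_surjective).exists_card_eq
      have hle : Nat.card ρ.range ≤ p := (Subgroup.card_le_card_group _).trans hH
      have hj1 : j ≤ 1 := by
        by_contra hj2
        push Not at hj2
        have h9 : p ^ 1 < p ^ j := Nat.pow_lt_pow_right hp.out.one_lt hj2
        rw [pow_one] at h9
        omega
      haveI : IsCyclic ρ.range := by
        rcases Nat.le_one_iff_eq_zero_or_eq_one.1 hj1 with rfl | rfl
        · haveI := (Nat.card_eq_one_iff_unique.1 (hj.trans (pow_zero p))).1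
          exact isCyclic_of_subsingleton
        · exact isCyclic_of_prime_card (hj.trans (pow_one p))
      exact congrArg Subtype.val (IsCyclic.commutative.is_comm.comm (ρ.rangeRestrict a) (ρ.rangeRestrict b))
    obtain ⟨m, hm, hkm⟩ := hodd k (hDR k.2)
    refine hk1 (Subtype.ext (eq_one_of_moved (V := V) fun w hw => ?_))
    exact eq_zero_of_mem_moved h2 hm hkm hw (hker k (hρab hk.1) w hw)
  -- `D` has order at most `p`
  have hDcard : Nat.card D ≤ p := by
    by_contra hgt
    push Not at hgt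
    have h16 := hshort D le_rfl (fun k hk d hd => hab k hk d hd) hxD
    have hinv : ∀ a ∈ D, ∀ g ∈ D, ∀ u ∈ moved (V := V) a, g • u ∈ moved a := fun a ha g hg u hu =>
      smul_mem_moved (hab g hg a ha) hu
    have hbig : ∀ a ∈ D, a ≠ 1 → 5 ≤ Nat.card (moved (V := V) a) := by
      intro a ha ha1
      by_contra h
      push Not at h
      obtain ⟨m, hm, ham⟩ := hodd a (hDR ha)
      refine ha1 (eq_one_of_moved (V := V) fun w hw => eq_zero_of_mem_moved h2 hm ham hw ?_)
      exact fix_of_card_le_four hp5 hR (hDR ha) (by omega) (fun u hu => smul_mem_moved rfl hu) hw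
    obtain ⟨a, ha⟩ : ∃ a : D, a ≠ 1 := by
      by_contra h
      push Not at h
      haveI : Subsingleton D := ⟨fun u v => (h u).trans (h v).symm⟩
      rw [Nat.card_of_subsingleton (1 : D)] at hgt
      have := hp.out.one_lt; omega
    obtain ⟨H, _, _, ρ, hH, hker⟩ := card_image_le h2 hp5 hDp (h16 a a.2) (hinv a a.2)
    obtain ⟨c, hc, hc1⟩ : ∃ c : D, ρ c = 1 ∧ c ≠ 1 := by
      by_contra h
      push Not at h
      have := Nat.card_le_card_of_injective ρ ((injective_iff_map_eq_one ρ).2 h)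
      omega
    obtain ⟨m, hm, ham⟩ := hodd a (hDR a.2)
    obtain ⟨l, hl, hcl⟩ := hodd c (hDR c.2)
    have hdisj : ∀ w, w ∈ moved (V := V) (a : Γ) → w ∈ moved (V := V) (c : Γ) → w = 0 :=
      fun w hw hw' => eq_zero_of_mem_moved h2 hl hcl hw' (hker c hc w hw)
    have hatriv : ∀ w ∈ moved (V := V) (c : Γ), (a : Γ) • w = w := fun w hw =>
      sub_eq_zero.1 (hdisj _ (sub_mem_moved _ w) (sub_mem (hinv c c.2 a a.2 w hw) hw))
    have hA : ∀ (g : Γ) (n : ℕ), Odd n → g ^ n = 1 → ∀ (h : Γ), g * h = h * g →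
        (∀ w ∈ moved (V := V) g, h • w = w) → moved (V := V) g ≤ moved (h * g) := by
      intro g n hn hgn h hgh hw w hwg
      -- `g` is onto on its own commutator
      let T : moved (V := V) g → moved (V := V) g := fun u => ⟨g • (u : V) - u, sub_mem_moved g (u : V)⟩
      have hT : Function.Injective T := fun u v huv => by
        have h5 : g • (u : V) - u = g • (v : V) - v := congrArg Subtype.val huv
        refine Subtype.ext (sub_eq_zero.1 (eq_zero_of_mem_moved (w := (u : V) - v) h2 hn hgn (sub_mem u.2 v.2) ?_))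
        rw [smul_sub, sub_eq_sub_iff_sub_eq_sub]
        exact h5
      obtain ⟨u, hu⟩ := Finite.injective_iff_surjective.1 hT ⟨w, hwg⟩
      refine mem_moved.2 ⟨u, ?_⟩
      rw [mul_smul, hw _ (smul_mem_moved rfl u.2)]
      exact congrArg Subtype.val hu
    have hca : (c : Γ) * a = a * c := hab c c.2 a a.2
    have h1 : moved (V := V) (c : Γ) ≤ moved ((a : Γ) * c) := hA c l hl hcl a hca hatriv
    have h1' : moved (V := V) (a : Γ) ≤ moved ((a : Γ) * c) := by
      rw [← hca]; exact hA a m hm ham c hca.symm (fun w hw => hker c hc w hw)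
    have h3 : Nat.card (moved (V := V) (a : Γ)) * Nat.card (moved (V := V) (c : Γ)) ≤ 16 := by
      rw [← Nat.card_prod]
      refine (Nat.card_le_card_of_injective (fun w : moved (V := V) (a : Γ) × moved (V := V) (c : Γ) =>
        (⟨(w.1 : V) + w.2, add_mem (h1' w.1.2) (h1 w.2.2)⟩ : moved (V := V) ((a : Γ) * c))) ?_).trans
        (h16 _ (mul_mem a.2 c.2))
      rintro ⟨⟨u, hu⟩, ⟨v, hv⟩⟩ ⟨⟨u', hu'⟩, ⟨v', hv'⟩⟩ h
      have h5 : u + v = u' + v' := congrArg Subtype.val h
      have h6 : u - u' = v' - v := by rw [sub_eq_sub_iff_add_eq_add, h5, add_comm]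
      have h7 := hdisj (u - u') (sub_mem hu hu') (h6 ▸ sub_mem hv' hv)
      have hu0 : u = u' := sub_eq_zero.1 h7
      subst hu0
      exact Prod.ext rfl (Subtype.ext (add_left_cancel h5))
    have h4 := hbig a a.2 (fun h => ha (Subtype.ext h))
    have h5 := hbig c c.2 (fun h => hc1 (Subtype.ext h))
    have := Nat.mul_le_mul h4 h5
    omega
  -- conclude
  rw [Subgroup.relIndex]
  refine le_trans ?_ hDcard
  have hfixW : ∀ c ∈ R, c * x = x * c → c ∈ C := fun c hc hcx => hC c fun w hw =>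
    fix_of_card_le_four hp5 hR hc hW (fun u hu => smul_mem_moved hcx hu) hw
  choose zf hzf cf hcf hcfx hfeq using fun f : E => hdec f (hE f.2)
  refine Nat.card_le_card_of_injective
    (fun v : E ⧸ C.subgroupOf E => (⟨zf v.out, hzf v.out⟩ : D)) fun u v huv => ?_
  rw [← QuotientGroup.out_eq' u, ← QuotientGroup.out_eq' v, QuotientGroup.eq, Subgroup.mem_subgroupOf,
    Subgroup.coe_mul, InvMemClass.coe_inv, hfeq u.out, hfeq v.out,
    show zf u.out = zf v.out from congrArg Subtype.val huv, mul_inv_rev, mul_assoc, inv_mul_cancel_left]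
  exact mul_mem (inv_mem (hfixW _ (hcf _) (hcfx _))) (hfixW _ (hcf _) (hcfx _))

end CfsgLib.FourCommutator
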