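import Mathlib
import Cfsg.Agent.FourCommutator.Basic

/-! Abelian `3`-groups normalized by an element of order three whose commutator is a four-group. -/

namespace CfsgLib.FourCommutator

variable {Γ : Type*} [Group Γ] [Finite Γ] {V : Type*} [AddCommGroup V] [Finite V] [DistribMulAction Γ V]
  [FaithfulSMul Γ V]

omit [Finite Γ] [FaithfulSMul Γ V] in
theorem eq_of_invariant {x : Γ} (h2 : ∀ v : V, v + v = 0) (hx : x ^ 3 = 1)
    (hW : Nat.card (moved (V := V) x) = 4) (B : AddSubgroup V) (hB : ∀ v ∈ B, x • v ∈ B) {w : V}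
    (hw : w ∈ moved x) (hwB : w ∈ B) (hw0 : w ≠ 0) : moved x ≤ B := by
  classical
  have hne : ∀ {u : V}, u ∈ moved x → u ≠ 0 → x • u ≠ u := fun hu hu0 h =>
    hu0 (eq_zero_of_mem_moved (m := 3) h2 (by decide) hx hu h)
  have hxw : x • w ∈ moved x := smul_mem_moved rfl hw
  have hxw0 : x • w ≠ 0 := fun h => hw0 (by simpa using congrArg (fun v => x⁻¹ • v) h)
  let H : AddSubgroup V := moved x ⊓ B
  have h1 : H = moved x := by
    refine AddSubgroup.eq_of_le_of_card_ge inf_le_left ?_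
    rw [hW]
    have h3 : ({0, w, x • w} : Finset V).card ≤ Nat.card H := by
      rw [← SetLike.coe_sort_coe, Nat.card_coe_set_eq, ← Set.ncard_coe_finset]
      refine Set.ncard_le_ncard (fun z hz => ?_) (Set.toFinite _)
      simp only [Finset.coe_insert, Finset.coe_singleton, Set.mem_insert_iff, Set.mem_singleton_iff] at hz
      rcases hz with rfl | rfl | rfl
      exacts [zero_mem H, ⟨hw, hwB⟩, ⟨hxw, hB w hwB⟩]
    rw [Finset.card_eq_three.2 ⟨0, w, x • w, hw0.symm, hxw0.symm, fun h => hne hw hw0 h.symm, rfl⟩] at h3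
    have h4 : Nat.card H ∣ 4 := hW ▸ AddSubgroup.card_dvd_of_le inf_le_left
    have h5 : Nat.card H ≤ 4 := Nat.le_of_dvd (by norm_num) h4
    interval_cases h6 : Nat.card H <;> omega
  intro u hu
  exact (h1.ge hu).2

omit [Finite Γ] in
/-- Two commuting elements of order three with the same four-group as commutator generate the same group. -/
theorem eq_or_eq_inv {x g : Γ} (h2 : ∀ v : V, v + v = 0) (hx : x ^ 3 = 1) (hg : g ^ 3 = 1)
    (hW : Nat.card (moved (V := V) x) = 4) (hgW : moved (V := V) g = moved x) (hgx : g * x = x * g) :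
    g = x ∨ g = x⁻¹ := by
  classical
  have hfix : ∀ v : V, x • v = v → g • v = v := by
    intro v hv
    refine sub_eq_zero.1 (eq_zero_of_mem_moved (m := 3) h2 (by decide) hx (hgW ▸ sub_mem_moved g v) ?_)
    rw [smul_sub, smul_smul, ← hgx, mul_smul, hv]
  obtain ⟨w, hw, hw0⟩ : ∃ w ∈ moved (V := V) x, w ≠ 0 := by
    by_contra h
    push Not at h
    haveI : Subsingleton (moved (V := V) x) := ⟨fun a b => Subtype.ext ((h a a.2).trans (h b b.2).symm)⟩
    rw [Nat.card_of_subsingleton (0 : moved (V := V) x)] at hW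
    omega
  -- the two powers are determined by one vector
  have huniq : ∀ k : Γ, k * x = x * k → (∀ v : V, x • v = v → k • v = v) → g • w = k • w → g = k := by
    intro k hkx hkfix h
    let B : AddSubgroup V :=
      { carrier := {v | g • v = k • v}
        zero_mem' := by simp only [Set.mem_setOf_eq, smul_zero]
        add_mem' := fun {a b} ha hb => by
          simp only [Set.mem_setOf_eq] at ha hb ⊢
          rw [smul_add, smul_add, ha, hb]
        neg_mem' := fun {a} ha => by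
          simp only [Set.mem_setOf_eq] at ha ⊢
          rw [smul_neg, smul_neg, ha] }
    have hB : moved x ≤ B := eq_of_invariant h2 hx hW B (fun v hv => by
      show g • x • v = k • x • v
      rw [smul_smul, smul_smul, hgx, hkx, mul_smul, mul_smul, show g • v = k • v from hv]) hw h hw0
    refine eq_of_smul_eq_smul fun v : V => ?_
    have h1 : x • (v + x • v + x • x • v) = v + x • v + x • x • v := by
      have h3 : x • x • x • v = v := by
        rw [smul_smul, smul_smul, show x * x * x = x ^ 3 by rw [pow_succ, pow_two], hx, one_smul]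
      rw [smul_add, smul_add, h3]; abel
    have h4 : v + x • v + x • x • v - v ∈ moved (V := V) x := by
      have h5 := sub_mem_moved x (x • v)
      have h6 : v + x • v + x • x • v - v = x • x • v - x • v + (x • v + x • v) := by abel
      rw [h6, h2, add_zero]; exact h5
    have h7 : g • (v + x • v + x • x • v - v) = k • (v + x • v + x • x • v - v) := hB h4
    rw [smul_sub, smul_sub, hfix _ h1, hkfix _ h1, sub_right_inj] at h7
    exact h7
  have hgw : g • w ∈ moved (V := V) x := hgW ▸ smul_mem_moved rfl (hgW ▸ hw)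
  have hgw0 : g • w ≠ 0 := fun h => hw0 (by simpa using congrArg (fun v => g⁻¹ • v) h)
  have hgw1 : g • w ≠ w := fun h => hw0 (eq_zero_of_mem_moved (m := 3) h2 (by decide) hg (hgW ▸ hw) h)
  by_cases h1 : g • w = x • w
  · exact Or.inl (huniq x rfl (fun v hv => hv) h1)
  refine Or.inr (huniq x⁻¹ (by rw [inv_mul_cancel, mul_inv_cancel])
    (fun v hv => by rw [inv_smul_eq_iff, hv]) ?_)
  -- four elements only
  by_contra h3
  have hxw : x • w ∈ moved (V := V) x := smul_mem_moved rfl hw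
  have hiw : x⁻¹ • w ∈ moved (V := V) x := smul_mem_moved (by rw [inv_mul_cancel, mul_inv_cancel]) hw
  have hxne : x • w ≠ w := fun h => hw0 (eq_zero_of_mem_moved (m := 3) h2 (by decide) hx hw h)
  have hixne : x⁻¹ • w ≠ w := fun h => hxne (by conv_lhs => rw [← h, smul_inv_smul])
  have hxx : x • w ≠ x⁻¹ • w := fun h => hxne (by
    have h4 := congrArg (fun v => x • x • v) h
    simp only [smul_inv_smul] at h4
    rw [smul_smul, smul_smul, show x * x * x = x ^ 3 by rw [pow_succ, pow_two], hx, one_smul] at h4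
    exact h4.symm)
  have hx0 : x • w ≠ 0 := fun h => hw0 (by simpa using congrArg (fun v => x⁻¹ • v) h)
  have hi0 : x⁻¹ • w ≠ 0 := fun h => hw0 (by simpa using congrArg (fun v => x • v) h)
  have h5 : ({0, w, x • w, x⁻¹ • w, g • w} : Finset V).card ≤ Nat.card (moved (V := V) x) := by
    rw [← SetLike.coe_sort_coe, Nat.card_coe_set_eq, ← Set.ncard_coe_finset]
    refine Set.ncard_le_ncard (fun z hz => ?_) (Set.toFinite _)
    simp only [Finset.coe_insert, Finset.coe_singleton, Set.mem_insert_iff, Set.mem_singleton_iff] at hz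
    rcases hz with rfl | rfl | rfl | rfl | rfl
    exacts [zero_mem _, hw, hxw, hiw, hgw]
  rw [Finset.card_insert_of_notMem (by simp [hw0.symm, hx0.symm, hi0.symm, hgw0.symm]),
    Finset.card_insert_of_notMem (by simp [hxne.symm, hixne.symm, hgw1.symm]),
    Finset.card_insert_of_notMem (by simp [hxx, Ne.symm h1]),
    Finset.card_insert_of_notMem (by simp [Ne.symm h3]), Finset.card_singleton, hW] at h5
  omega

/-- An abelian group of exponent three normalized by `x` commutes with it. -/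
theorem commute_of_three (h2 : ∀ v : V, v + v = 0) {x : Γ} (hx : x ^ 3 = 1)
    (hW : Nat.card (moved (V := V) x) = 4) {F : Subgroup Γ} (hFc : ∀ a ∈ F, ∀ b ∈ F, a * b = b * a)
    (hF3 : ∀ a ∈ F, a ^ 3 = 1) (hxF : ∀ a ∈ F, x * a * x⁻¹ ∈ F) : ∀ f ∈ F, f * x = x * f := by
  classical
  haveI : Fact (Nat.Prime 3) := ⟨Nat.prime_three⟩
  let δ : Γ → Γ := fun f => x * f * x⁻¹ * f⁻¹
  have hδmem : ∀ f ∈ F, δ f ∈ F := fun f hf => mul_mem (hxF f hf) (inv_mem hf)
  have hcomm3 : ∀ {a b : Γ}, a ∈ F → b ∈ F → Commute a b := fun ha hb => hFc _ ha _ hb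
  -- the third iterate is trivial
  have hδ3 : ∀ f ∈ F, δ (δ (δ f)) = 1 := by
    intro f hf
    letI : CommGroup F := { (inferInstance : Group F) with mul_comm := fun a b => Subtype.ext (hFc a a.2 b b.2) }
    let c : F → F := fun a => ⟨x * a * x⁻¹, hxF a a.2⟩
    let d : F → F := fun a => c a * a⁻¹
    have hc : ∀ a b, c (a * b) = c a * c b := fun a b => Subtype.ext (by simp [c, mul_assoc])
    have hci : ∀ a, c a⁻¹ = (c a)⁻¹ := fun a => Subtype.ext (by simp [c, mul_assoc])
    have hccc : ∀ a, c (c (c a)) = a := fun a => Subtype.ext (by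
      show x * (x * (x * (a : Γ) * x⁻¹) * x⁻¹) * x⁻¹ = a
      calc _ = x ^ 3 * (a : Γ) * (x ^ 3)⁻¹ := by rw [pow_succ, pow_two]; group
        _ = _ := by rw [hx]; group)
    have h3' : ∀ a : F, a * a * a = 1 := fun a => Subtype.ext (by
      show (a : Γ) * a * a = 1
      rw [← pow_two, ← pow_succ]; exact hF3 a a.2)
    have hexp : ∀ a1 a2 : F, a1 * a1 * a1 * (a2 * a2 * a2)⁻¹ = 1 := fun a1 a2 => by
      rw [h3', h3', inv_one, mul_one]
    have key : d (d (d ⟨f, hf⟩)) = 1 := by
      refine Eq.trans ?_ (hexp (c ⟨f, hf⟩) (c (c ⟨f, hf⟩)))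
      simp only [d, hc, hci, hccc, mul_inv_rev, inv_inv]
      apply Additive.ofMul.injective
      simp only [ofMul_mul, ofMul_inv]
      abel
    exact congrArg Subtype.val key
  by_contra hne
  push Not at hne
  obtain ⟨f₀, hf₀, hne⟩ := hne
  have hδ0 : ∀ f, δ f = 1 ↔ f * x = x * f := fun f => by
    simp only [δ]; rw [mul_inv_eq_one, mul_inv_eq_iff_eq_mul]; exact eq_comm
  obtain ⟨f, hf, hy0, hy1⟩ : ∃ f ∈ F, δ f ≠ 1 ∧ δ (δ f) = 1 := by
    by_cases h1 : δ (δ f₀) = 1
    · exact ⟨f₀, hf₀, fun h => hne ((hδ0 _).1 h), h1⟩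
    · exact ⟨δ f₀, hδmem _ hf₀, h1, hδ3 f₀ hf₀⟩
  set y := δ f with hyd
  have hy : y ∈ F := hδmem f hf
  have hyx : y * x = x * y := (hδ0 y).1 hy1
  set x₁ := f * x * f⁻¹ with hx₁d
  have hx₁ : x₁ = y⁻¹ * x := by simp only [hx₁d, hyd, δ]; group
  have hx₁x : x₁ * x = x * x₁ := by
    rw [hx₁, mul_assoc, ← mul_assoc x, ← (Commute.inv_left (show Commute y x from hyx)).eq, mul_assoc]
  have hx₁3 : x₁ ^ 3 = 1 := by rw [hx₁d, conj_pow, hx, mul_one, mul_inv_cancel]
  have hW₁ : Nat.card (moved (V := V) x₁) = 4 := by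
    rw [hx₁d, moved_conj, ← hW]
    exact (Nat.card_congr (AddSubgroup.equivMapOfInjective _ _ (MulAction.injective f)).toEquiv).symm
  set x₂ := f * x₁ * f⁻¹ with hx₂d
  have hx₂ : x₂ = y⁻¹ * (y⁻¹ * x) := by
    rw [hx₂d, hx₁]
    calc f * (y⁻¹ * x) * f⁻¹ = (f * y⁻¹ * f⁻¹) * (f * x * f⁻¹) := by group
      _ = _ := by rw [(hcomm3 hf (inv_mem hy)).eq, mul_inv_cancel_right, ← hx₁d, hx₁]
  have hW₂ : Nat.card (moved (V := V) x₂) ≤ 4 := by
    rw [hx₂d, moved_conj, ← hW₁]
    exact Nat.card_image_le (Set.toFinite _)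
  by_cases hWW : moved (V := V) x₁ = moved x
  · rcases eq_or_eq_inv h2 hx hx₁3 hW hWW hx₁x with h | h
    · rw [h] at hx₁
      exact hy0 (inv_eq_one.1 (mul_eq_right.1 hx₁.symm))
    · rw [h] at hx₁
      have h1 : y = x * x := by
        rw [← inv_inj, ← mul_left_inj x, ← hx₁]; group
      have h4 : x⁻¹ = x * x := inv_eq_of_mul_eq_one_right (by rw [← mul_assoc, ← pow_two, ← pow_succ, hx])
      have hxF' : x ∈ F := by
        rw [← inv_mem_iff, h4, ← h1]; exact hy
      exact hy0 ((hδ0 f).2 (hcomm3 hf hxF').eq)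
  -- distinct commutators
  have hdisj : ∀ w, w ∈ moved (V := V) x → w ∈ moved (V := V) x₁ → w = 0 := by
    intro w hw hw'
    by_contra h0
    refine hWW (AddSubgroup.eq_of_le_of_card_ge ?_ (hW₁.trans hW.symm).le).symm
    exact eq_of_invariant h2 hx hW _ (fun v hv => smul_mem_moved (by rw [hx₁x]) hv) hw hw' h0
  have htriv : ∀ w ∈ moved (V := V) x, x₁ • w = w := fun w hw => sub_eq_zero.1 (hdisj _
    (sub_mem (smul_mem_moved hx₁x hw) hw) (sub_mem_moved x₁ w))
  have htriv' : ∀ w ∈ moved (V := V) x₁, x • w = w := fun w hw => sub_eq_zero.1 (hdisj _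
    (sub_mem_moved x w) (sub_mem (smul_mem_moved hx₁x.symm hw) hw))
  have hx₂' : x₂ = x₁ * x⁻¹ * x₁ := by rw [hx₂, hx₁]; group
  have honto : ∀ (g : Γ), g ^ 3 = 1 → ∀ w ∈ moved (V := V) g, ∃ u ∈ moved (V := V) g, g • u - u = w := by
    intro g hg w hw
    let T : moved (V := V) g → moved (V := V) g := fun u => ⟨g • (u : V) - u, sub_mem_moved g (u : V)⟩
    have hT : Function.Injective T := fun u v huv => by
      have h5 : g • (u : V) - u = g • (v : V) - v := congrArg Subtype.val huv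
      refine Subtype.ext (sub_eq_zero.1 (eq_zero_of_mem_moved (w := (u : V) - v) (m := 3) h2 (by decide) hg
        (sub_mem u.2 v.2) ?_))
      rw [smul_sub, sub_eq_sub_iff_sub_eq_sub]
      exact h5
    obtain ⟨u, hu⟩ := Finite.injective_iff_surjective.1 hT ⟨w, hw⟩
    exact ⟨u, u.2, congrArg Subtype.val hu⟩
  have h16 : moved (V := V) x ⊔ moved x₁ ≤ moved x₂ := by
    refine sup_le ?_ ?_
    · intro w hw
      obtain ⟨u, hu, rfl⟩ := honto x⁻¹ (by rw [inv_pow, hx, inv_one]) w (by rwa [moved_inv])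
      rw [moved_inv] at hu
      refine mem_moved.2 ⟨u, ?_⟩
      rw [hx₂', mul_smul, mul_smul, htriv u hu]
      rw [htriv _ (smul_mem_moved (by rw [inv_mul_cancel, mul_inv_cancel]) hu)]
    · intro w hw
      have hsq : (x₁ * x₁) ^ 3 = 1 := by rw [← pow_two, ← pow_mul, mul_comm, pow_mul, hx₁3, one_pow]
      have hmsq : moved (V := V) (x₁ * x₁) = moved x₁ := by
        rw [show x₁ * x₁ = x₁⁻¹ from (inv_eq_of_mul_eq_one_right
          (by rw [← mul_assoc, ← pow_two, ← pow_succ]; exact hx₁3)).symm, moved_inv]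
      obtain ⟨u, hu, rfl⟩ := honto (x₁ * x₁) hsq w (by rwa [hmsq])
      rw [hmsq] at hu
      refine mem_moved.2 ⟨u, ?_⟩
      have h4 : x⁻¹ • (x₁ • u) = x₁ • u := by
        rw [inv_smul_eq_iff, htriv' _ (smul_mem_moved rfl hu)]
      rw [hx₂', mul_smul, mul_smul, h4, smul_smul x₁ x₁]
  have hle := (AddSubgroup.card_le_of_le h16).trans hW₂
  have h5 : Nat.card (moved (V := V) x × moved (V := V) x₁) ≤ Nat.card ↥(moved (V := V) x ⊔ moved x₁) := by
    refine Nat.card_le_card_of_injective (fun w => (⟨(w.1 : V) + w.2,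
      AddSubgroup.add_mem_sup w.1.2 w.2.2⟩ : ↥(moved (V := V) x ⊔ moved x₁))) ?_
    rintro ⟨⟨a, ha⟩, ⟨b, hb⟩⟩ ⟨⟨a', ha'⟩, ⟨b', hb'⟩⟩ h
    have h6 : a + b = a' + b' := congrArg Subtype.val h
    have h7 : a - a' = b' - b := by rw [sub_eq_sub_iff_add_eq_add, h6, add_comm]
    have h8 := hdisj _ (sub_mem ha ha') (h7 ▸ sub_mem hb' hb)
    have ha0 : a = a' := sub_eq_zero.1 h8
    subst ha0
    exact Prod.ext rfl (Subtype.ext (add_left_cancel h6))
  rw [Nat.card_prod, hW, hW₁] at h5
  omega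

/-- The centralizer of the four-group has index at most three in such a group. -/
theorem relIndex_fix_le_three (h2 : ∀ v : V, v + v = 0) {x : Γ} (hx : x ^ 3 = 1)
    (hW : Nat.card (moved (V := V) x) = 4) {F : Subgroup Γ} (hFc : ∀ a ∈ F, ∀ b ∈ F, a * b = b * a)
    (hF3 : ∀ a ∈ F, a ^ 3 = 1) (hxF : ∀ a ∈ F, x * a * x⁻¹ ∈ F) {C : Subgroup Γ}
    (hC : ∀ g : Γ, (∀ w ∈ moved (V := V) x, g • w = w) → g ∈ C) : C.relIndex F ≤ 3 := by
  classical
  haveI : Fact (Nat.Prime 3) := ⟨Nat.prime_three⟩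
  have hcomm := commute_of_three h2 hx hW hFc hF3 hxF
  let ρ : F →* Equiv.Perm (moved (V := V) x) :=
    { toFun := fun f =>
        { toFun := fun w => ⟨(f : Γ) • (w : V), smul_mem_moved (hcomm f f.2) w.2⟩
          invFun := fun w => ⟨(f : Γ)⁻¹ • (w : V), smul_mem_moved (hcomm _ (inv_mem f.2)) w.2⟩
          left_inv := fun w => Subtype.ext (inv_smul_smul (f : Γ) (w : V))
          right_inv := fun w => Subtype.ext (smul_inv_smul (f : Γ) (w : V)) }
      map_one' := Equiv.ext fun w => Subtype.ext (show ((1 : F) : Γ) • (w : V) = w by simp)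
      map_mul' := fun a b => Equiv.ext fun w => Subtype.ext
        (show ((a * b : F) : Γ) • (w : V) = (a : Γ) • (b : Γ) • (w : V) by rw [Subgroup.coe_mul, mul_smul]) }
  have hker : ρ.ker ≤ C.subgroupOf F := fun f hf => hC f fun w hw => by
    rw [MonoidHom.mem_ker] at hf
    exact congrArg Subtype.val (Equiv.congr_fun hf ⟨w, hw⟩)
  have h1 : (C.subgroupOf F).index ∣ Nat.card ρ.range := by
    rw [← Subgroup.index_ker]
    exact Subgroup.index_dvd_of_le hker
  obtain ⟨e, he⟩ := ((show IsPGroup 3 F from fun a => ⟨1, by rw [pow_one]; exact Subtype.ext (hF3 a a.2)⟩).of_surjective _ ρ.rangeRestrict_surjective).exists_card_eq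
  have h24 : 3 ^ e ∣ 24 := by
    rw [← he]
    refine (Subgroup.card_subgroup_dvd_card ρ.range).trans (dvd_of_eq ?_)
    rw [Nat.card_perm, hW]; rfl
  have he1 : e ≤ 1 := by
    by_contra h
    push Not at h
    exact absurd ((pow_dvd_pow 3 h).trans h24) (by norm_num)
  exact (Nat.le_of_dvd (by rw [he]; positivity) h1).trans
    (he ▸ (Nat.pow_le_pow_right (by norm_num) he1).trans (pow_one 3).le)

end CfsgLib.FourCommutator
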