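import Mathlib
import Cfsg.Agent.FourCommutator.Three
import Cfsg.Agent.Solvable.Hall
import Cfsg.Agent.PGroup.RankThree
import Cfsg.Agent.OddLocal.RankTwoFitting
import Cfsg.Agent.Constrained.Basic

/-! An element of order three (modulo the kernel) with four-group commutator on a normal elementary
`2`-subgroup, and the ranks of the centralizer of that four-group. -/

open Cfsg
open scoped commutatorElement

namespace CfsgLib.FourCommutator

variable {S : Type*} [Group S] [Finite S]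

/-- A `{3, p}`-group of odd order with `p`-rank at least three: either it has a normal elementary
subgroup of order 27 in the given Sylow 3-subgroup, or the core `O_p` has rank at least three. -/
theorem rank_three_alternative {H : Type*} [Group H] [Finite H] (hsol : Group.IsSolvable H) {p : ℕ}
    (hp : p.Prime) (hp5 : 5 ≤ p) (hπ : ∀ r : ℕ, r.Prime → r ∣ Nat.card H → r = 3 ∨ r = p)
    (T : Sylow 3 H) (hT : PRankLE 3 2 ↥(T : Subgroup H)) {E : Subgroup H} (hEc : IsMulCommutative E)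
    (hEe : ∀ e ∈ E, e ^ p = 1) (hE : p ^ 2 < Nat.card E) : ¬ PRankLE p 2 ↥(pCore p H) := by
  classical
  haveI : Fact p.Prime := ⟨hp⟩
  haveI : Fact (Nat.Prime 3) := ⟨Nat.prime_three⟩
  haveI := hsol
  intro hP
  have hodd : Odd (Nat.card H) := by
    rw [← Nat.not_even_iff_odd, even_iff_two_dvd]
    intro h
    rcases hπ 2 Nat.prime_two h with h | h <;> omega
  have hr : ∀ r : ℕ, r.Prime → PRankLE r 2 ↥(pCore r H) := by
    intro r hr A hAc hAe
    haveI : Fact r.Prime := ⟨hr⟩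
    by_cases hd : r ∣ Nat.card H
    · rcases hπ r hr hd with rfl | rfl
      · obtain ⟨T', hT'⟩ := (CfsgLib.Constrained.isPGroup_pCore (p := 3) (G := H)).exists_le_sylow
        obtain ⟨g, hg⟩ := MulAction.exists_smul_eq H T' T
        have hle : pCore 3 H ≤ (T : Subgroup H) := by
          intro z hz
          rw [← hg, Sylow.coe_subgroup_smul]
          refine ⟨g⁻¹ * z * g, hT' ?_, by simp [mul_assoc]⟩
          have h := (inferInstance : (pCore 3 H).Normal).conj_mem z hz g⁻¹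
          rwa [inv_inv] at h
        have h1 := hT (A.map (Subgroup.inclusion hle)) ?_ (by
          rintro _ ⟨a, ha, rfl⟩
          rw [← map_pow, hAe a ha, map_one])
        · rwa [Nat.card_congr (A.equivMapOfInjective _ (Subgroup.inclusion_injective hle)).toEquiv.symm] at h1
        · exact ⟨⟨by
            rintro ⟨_, a, ha, rfl⟩ ⟨_, b, hb, rfl⟩
            refine Subtype.ext ?_
            show Subgroup.inclusion hle a * Subgroup.inclusion hle b =
              Subgroup.inclusion hle b * Subgroup.inclusion hle a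
            rw [← map_mul, ← map_mul,
              show a * b = b * a from congrArg Subtype.val (hAc.is_comm.comm ⟨a, ha⟩ ⟨b, hb⟩)]⟩⟩
      · exact hP A hAc hAe
    · have h1 : A = ⊥ := by
        rw [Subgroup.eq_bot_iff_forall]
        intro a ha
        by_contra h
        refine hd ?_
        rw [← orderOf_eq_prime (hAe a ha) h]
        exact (orderOf_dvd_natCard a).trans (Subgroup.card_subgroup_dvd_card _)
      rw [h1, Subgroup.card_bot]
      exact Nat.one_le_pow _ _ hr.pos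
  have hF : commutator H ≤ fittingSubgroup H :=
    CfsgLib.OddLocal.derived_le_fitting (CfsgLib.OddLocal.hact_of_rank_two hodd hr)
  have hN := CfsgLib.OddLocal.isPiHall_piCore hF 3 fun r s hr' hs hr3 hs3 x ⟨m, hm⟩ =>
    CfsgLib.OddLocal.mem_centralizer_pCore_of_lt hodd hr hr' hs (by omega) hm
  set N := piCore {q | q.Prime ∧ 3 < q} H with hNdef
  have hNp : IsPGroup p N := by
    refine IsPGroup.of_card_dvd_pow (n := Nat.card N) ?_
    have h1 : ∀ r : ℕ, r.Prime → r ∣ Nat.card N → r = p := fun r hr' hd => by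
      rcases hπ r hr' (hd.trans (Subgroup.card_subgroup_dvd_card N)) with h | h
      · have h2 := (hN.1 r hr' hd).2
        omega
      · exact h
    have h2 := Nat.eq_prime_pow_of_unique_prime_dvd (n := Nat.card N) (p := p) Nat.card_pos.ne'
      (fun {d} hd hdd => h1 d hd hdd)
    calc Nat.card N = p ^ (Nat.card N).primeFactorsList.length := h2
      _ ∣ _ := pow_dvd_pow _ (by
        have h3 : (Nat.card N).primeFactorsList.length < p ^ (Nat.card N).primeFactorsList.length :=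
          Nat.lt_pow_self hp.one_lt
        rw [← h2] at h3
        omega)
  have hEN : E ≤ N := by
    intro e he
    by_contra heN
    refine hN.2 p hp ⟨hp, by omega⟩ ?_
    have h1 : orderOf (QuotientGroup.mk' N e) = p := orderOf_eq_prime (by
      rw [← map_pow, hEe e he, map_one]) fun h => heN ((QuotientGroup.eq_one_iff e).1 h)
    rw [← h1]
    exact orderOf_dvd_natCard (QuotientGroup.mk' N e)
  have hEP : E ≤ pCore p H := hEN.trans (CfsgLib.Constrained.le_pCore inferInstance hNp)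
  have h1 := hP (E.subgroupOf (pCore p H)) ⟨⟨by
      rintro ⟨a, ha⟩ ⟨b, hb⟩
      exact Subtype.ext (Subtype.ext (show (a : H) * b = b * a from
        congrArg Subtype.val (hEc.is_comm.comm ⟨(a : H), ha⟩ ⟨(b : H), hb⟩)))⟩⟩
    (fun a ha => Subtype.ext (hEe a ha))
  rw [Nat.card_congr (Subgroup.subgroupOfEquivOfLe hEP).toEquiv] at h1
  omega

/-- The main reduction. -/
theorem exists_centralized {M : Subgroup S} [M.Normal] (hsol : Group.IsSolvable S)
    (hM : IsElementaryAbelian 2 M) {p : ℕ} (hp : p.Prime) (hp2 : p ≠ 2) {E : Subgroup S}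
    (hE : IsElementaryAbelian p E) (hE3 : Nat.card E = p ^ 3) {Q : Subgroup S} (hQc : IsCyclic Q)
    (hQ3 : IsPGroup 3 Q) (hQ1 : ∀ x ∈ Q, x ^ 3 ∈ Subgroup.centralizer (M : Set S))
    (hQM : Nat.card ↥⁅Q, M⁆ = 4) :
    ∃ (r : ℕ) (F : Subgroup S), r.Prime ∧ r ≠ 2 ∧ IsElementaryAbelian r F ∧ Nat.card F = r ^ 3 ∧
      r ^ 2 ≤ Nat.card ↥(F ⊓ Subgroup.centralizer ((⁅Q, M⁆ : Subgroup S) : Set S)) := by
  classical
  haveI := hsol
  haveI : Fact p.Prime := ⟨hp⟩
  haveI : Fact (Nat.Prime 3) := ⟨Nat.prime_three⟩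
  obtain ⟨⟨x, hxQ⟩, hgen⟩ := hQc.exists_generator
  letI : CommGroup M := { (inferInstance : Group M) with mul_comm := hM.1.is_comm.comm }
  set ρ : S →* MulAut M := MulAut.conjNormal with hρd
  let V := Additive M
  let Γ := ρ.range
  letI : DistribMulAction Γ V :=
    { smul := fun g v => Additive.ofMul ((g : MulAut M) v.toMul)
      one_smul := fun v => rfl
      mul_smul := fun a b v => rfl
      smul_zero := fun g => congrArg Additive.ofMul (map_one (g : MulAut M))
      smul_add := fun g a b => congrArg Additive.ofMul (map_mul (g : MulAut M) a.toMul b.toMul) }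
  haveI : FaithfulSMul Γ V := ⟨fun {a b} h => Subtype.ext (MulEquiv.ext fun m =>
    congrArg Additive.toMul (h (Additive.ofMul m)))⟩
  haveI : Finite V := inferInstanceAs (Finite M)
  have h2 : ∀ v : V, v + v = 0 := fun v => Additive.toMul.injective (Subtype.ext
    (show (v.toMul : S) * v.toMul = 1 by rw [← pow_two]; exact hM.2 _ v.toMul.2))
  let r : S →* Γ := ρ.rangeRestrict
  have hsmul : ∀ (g : S) (v : V), (((r g) • v).toMul : S) = g * v.toMul * g⁻¹ := fun g v => rfl
  have hsub : ∀ (g : S) (v : V), ((((r g) • v - v)).toMul : S) = ⁅g, (v.toMul : S)⁆ := fun g v => by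
    rw [toMul_sub, div_eq_mul_inv]; rfl
  set xb := r x with hxb
  have hxb3 : xb ^ 3 = 1 := eq_of_smul_eq_smul fun v : V => Additive.toMul.injective (Subtype.ext (by
    rw [← map_pow, hsmul, one_smul, ← Subgroup.mem_centralizer_iff.1 (hQ1 x hxQ) _ v.toMul.2,
      mul_inv_cancel_right]))
  -- the commutator as a set of vectors
  let WS : Subgroup S :=
    { carrier := {z | ∃ w ∈ moved (V := V) xb, (w.toMul : S) = z}
      one_mem' := ⟨0, zero_mem _, rfl⟩
      mul_mem' := by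
        rintro _ _ ⟨a, ha, rfl⟩ ⟨b, hb, rfl⟩
        exact ⟨a + b, add_mem ha hb, rfl⟩
      inv_mem' := by
        rintro _ ⟨a, ha, rfl⟩
        exact ⟨-a, neg_mem ha, rfl⟩ }
  have hWS : (⁅Q, M⁆ : Subgroup S) = WS := by
    refine le_antisymm (Subgroup.commutator_le.2 fun g hg m hm => ?_) ?_
    · obtain ⟨i, hi⟩ := mem_powers_iff_mem_zpowers.2 (hgen ⟨g, hg⟩)
      have hgi : x ^ i = g := congrArg Subtype.val hi
      refine ⟨r g • (Additive.ofMul (⟨m, hm⟩ : M)) - Additive.ofMul ⟨m, hm⟩, ?_, hsub g _⟩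
      rw [← hgi, map_pow, ← hxb]
      clear hi hgi
      induction i with
      | zero => rw [pow_zero, one_smul, sub_self]; exact zero_mem _
      | succ i ih =>
        rw [pow_succ', mul_smul, show xb • xb ^ i • Additive.ofMul (⟨m, hm⟩ : M) - Additive.ofMul ⟨m, hm⟩ =
          (xb • xb ^ i • Additive.ofMul (⟨m, hm⟩ : M) - xb ^ i • Additive.ofMul ⟨m, hm⟩) +
          (xb ^ i • Additive.ofMul (⟨m, hm⟩ : M) - Additive.ofMul ⟨m, hm⟩) by abel]
        exact add_mem (sub_mem_moved _ _) ih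
    · rintro _ ⟨w, hw, rfl⟩
      obtain ⟨v, rfl⟩ := mem_moved.1 hw
      rw [hsub]
      exact Subgroup.commutator_mem_commutator hxQ v.toMul.2
  have hW : Nat.card (moved (V := V) xb) = 4 := by
    rw [← hQM, hWS]
    refine Nat.card_eq_of_bijective (fun w => (⟨(w.1.toMul : S), w.1, w.2, rfl⟩ : WS)) ⟨?_, ?_⟩
    · exact fun a b h => Subtype.ext (Additive.toMul.injective (Subtype.ext
        (congrArg Subtype.val h :)))
    · rintro ⟨_, w, hw, rfl⟩
      exact ⟨⟨w, hw⟩, rfl⟩
  set C := Subgroup.centralizer ((⁅Q, M⁆ : Subgroup S) : Set S) with hCd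
  have hCmap : ∀ g : Γ, (∀ w ∈ moved (V := V) xb, g • w = w) → g ∈ C.map r := by
    intro g hg
    obtain ⟨g, rfl⟩ := ρ.rangeRestrict_surjective g
    refine ⟨g, Subgroup.mem_centralizer_iff.2 fun z hz => ?_, rfl⟩
    rw [SetLike.mem_coe, hWS] at hz
    obtain ⟨w, hw, rfl⟩ := hz
    have h1 := congrArg (fun v : V => (v.toMul : S)) (hg w hw)
    rw [hsmul, mul_inv_eq_iff_eq_mul] at h1
    exact h1.symm
  have hkerC : r.ker ≤ C := fun g hg => by
    refine Subgroup.mem_centralizer_iff.2 fun z hz => ?_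
    rw [SetLike.mem_coe, hWS] at hz
    obtain ⟨w, hw, rfl⟩ := hz
    have h1 := hsmul g w
    rw [MonoidHom.mem_ker.1 hg, one_smul, eq_mul_inv_iff_mul_eq] at h1
    exact h1
  have hcount : ∀ {q : ℕ} {F : Subgroup S}, q.Prime → q ≠ 2 → IsElementaryAbelian q F → Nat.card F = q ^ 3 →
      (C.map r).relIndex (F.map r) ≤ q →
      ∃ (r : ℕ) (F : Subgroup S), r.Prime ∧ r ≠ 2 ∧ IsElementaryAbelian r F ∧ Nat.card F = r ^ 3 ∧
        r ^ 2 ≤ Nat.card ↥(F ⊓ C) := by
    intro q F hq hq2 hF hF3 hle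
    refine ⟨q, F, hq, hq2, hF, hF3, ?_⟩
    rw [← Subgroup.relIndex_comap, Subgroup.comap_map_eq, sup_eq_left.2 hkerC] at hle
    have h1 : Nat.card ↥(F ⊓ C) * C.relIndex F = q ^ 3 := by
      rw [← hF3, Subgroup.relIndex, ← (C.subgroupOf F).card_mul_index]
      congr 1
      rw [inf_comm, ← Subgroup.inf_subgroupOf_right,
        Nat.card_congr (Subgroup.subgroupOfEquivOfLe (inf_le_right : C ⊓ F ≤ F)).toEquiv]
    by_contra h
    push Not at h
    have h2 : Nat.card ↥(F ⊓ C) * C.relIndex F ≤ Nat.card ↥(F ⊓ C) * q := Nat.mul_le_mul_left _ hle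
    have h3 : Nat.card ↥(F ⊓ C) * q < q ^ 2 * q := Nat.mul_lt_mul_of_pos_right h hq.pos
    rw [show q ^ 2 * q = q ^ 3 by ring] at h3
    omega
  -- the case of a normalized elementary subgroup of order 27
  have three : ∀ {F : Subgroup S}, IsElementaryAbelian 3 F → Nat.card F = 3 ^ 3 → (∀ a ∈ F, x * a * x⁻¹ ∈ F) →
      ∃ (r : ℕ) (F : Subgroup S), r.Prime ∧ r ≠ 2 ∧ IsElementaryAbelian r F ∧ Nat.card F = r ^ 3 ∧
        r ^ 2 ≤ Nat.card ↥(F ⊓ C) := by
    intro F hF hF3 hxF
    refine hcount Nat.prime_three (by norm_num) hF hF3 (relIndex_fix_le_three h2 hxb3 hW ?_ ?_ ?_ hCmap)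
    · rintro _ ⟨a, ha, rfl⟩ _ ⟨b, hb, rfl⟩
      rw [← map_mul, ← map_mul, show a * b = b * a from congrArg Subtype.val (hF.1.is_comm.comm ⟨a, ha⟩ ⟨b, hb⟩)]
    · rintro _ ⟨a, ha, rfl⟩
      rw [← map_pow, hF.2 a ha, map_one]
    · rintro _ ⟨a, ha, rfl⟩
      exact ⟨x * a * x⁻¹, hxF a ha, by rw [map_mul, map_mul, map_inv]⟩
  -- a Hall subgroup containing `Q` and a conjugate of `E`
  set π : Set ℕ := {r | r = 3 ∨ r = p} with hπd
  have hQπ : ∀ r : ℕ, r.Prime → r ∣ Nat.card Q → r ∈ π := fun s hs hd => by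
    obtain ⟨n, hn⟩ := hQ3.exists_card_eq
    rw [hn] at hd
    exact Or.inl ((Nat.prime_dvd_prime_iff_eq hs Nat.prime_three).1 (hs.dvd_of_dvd_pow hd))
  have hEπ : ∀ r : ℕ, r.Prime → r ∣ Nat.card E → r ∈ π := fun s hs hd => by
    rw [hE3] at hd
    exact Or.inr ((Nat.prime_dvd_prime_iff_eq hs hp).1 (hs.dvd_of_dvd_pow hd))
  obtain ⟨H, hQH, hH, hH'⟩ := CfsgLib.Solvable.exists_piHall_ge π Q hQπ
  obtain ⟨g, hg⟩ := CfsgLib.Solvable.exists_le_conj_piHall π H E hH hH' hEπ
  set E' := E.map (MulAut.conj g⁻¹).toMonoidHom with hE'd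
  have hE'H : E' ≤ H := by
    rintro _ ⟨e, he, rfl⟩
    obtain ⟨h, hh, hhe⟩ := hg he
    rw [← hhe]
    show g⁻¹ * (g * h * g⁻¹) * g⁻¹⁻¹ ∈ H
    simpa [mul_assoc] using hh
  have hE'3 : Nat.card E' = p ^ 3 := by
    rw [← hE3]
    exact (Nat.card_congr (E.equivMapOfInjective _ (MulAut.conj g⁻¹).injective).toEquiv).symm
  have hE'e : IsElementaryAbelian p E' := by
    refine ⟨⟨⟨?_⟩⟩, ?_⟩
    · rintro ⟨_, a, ha, rfl⟩ ⟨_, b, hb, rfl⟩
      refine Subtype.ext ?_
      show (MulAut.conj g⁻¹) a * (MulAut.conj g⁻¹) b = (MulAut.conj g⁻¹) b * (MulAut.conj g⁻¹) a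
      rw [← map_mul, ← map_mul, show a * b = b * a from congrArg Subtype.val (hE.1.is_comm.comm ⟨a, ha⟩ ⟨b, hb⟩)]
    · rintro _ ⟨a, ha, rfl⟩
      rw [← map_pow, hE.2 a ha, map_one]
  obtain ⟨T, hT⟩ : ∃ T : Sylow 3 H, Q.subgroupOf H ≤ T :=
    (hQ3.comap_of_injective H.subtype H.subtype_injective).exists_le_sylow
  by_cases hrank : PRankLE 3 2 ↥(T : Subgroup H)
  swap
  · -- a normal elementary subgroup of order 27 in `T`
    simp only [PRankLE, not_forall, not_le] at hrank
    obtain ⟨A, hAc, hAe, hA⟩ := hrank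
    obtain ⟨B, hBn, hBc, hBe, hB⟩ := CfsgLib.PGroup.exists_normal_elementary_cube (p := 3) (by norm_num)
      T.isPGroup' hAc hAe hA
    refine three (F := B.map (H.subtype.comp (T : Subgroup H).subtype)) ⟨⟨⟨?_⟩⟩, ?_⟩ ?_ ?_
    · rintro ⟨_, a, ha, rfl⟩ ⟨_, b, hb, rfl⟩
      refine Subtype.ext ?_
      show (H.subtype.comp (T : Subgroup H).subtype) a * (H.subtype.comp (T : Subgroup H).subtype) b =
        (H.subtype.comp (T : Subgroup H).subtype) b * (H.subtype.comp (T : Subgroup H).subtype) a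
      rw [← map_mul, ← map_mul, show a * b = b * a from congrArg Subtype.val (hBc.is_comm.comm ⟨a, ha⟩ ⟨b, hb⟩)]
    · rintro _ ⟨a, ha, rfl⟩
      rw [← map_pow, hBe a ha, map_one]
    · rw [← hB]
      exact (Nat.card_congr (B.equivMapOfInjective _
        (H.subtype_injective.comp (T : Subgroup H).subtype_injective)).toEquiv).symm
    · rintro _ ⟨a, ha, rfl⟩
      exact ⟨⟨⟨x, hQH hxQ⟩, hT hxQ⟩ * a * ⟨⟨x, hQH hxQ⟩, hT hxQ⟩⁻¹, hBn.conj_mem a ha _, rfl⟩
  -- otherwise `p` is at least five and the core has rank three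
  have hp3 : p ≠ 3 := by
    rintro rfl
    obtain ⟨T', hT'⟩ : ∃ T' : Sylow 3 H, E'.subgroupOf H ≤ T' := IsPGroup.exists_le_sylow (IsPGroup.of_card (n := 3) (by
      rw [Nat.card_congr (Subgroup.subgroupOfEquivOfLe hE'H).toEquiv, hE'3]))
    obtain ⟨h, hh⟩ := MulAction.exists_smul_eq H T' T
    let c : E' →* (T : Subgroup H) :=
      ((MulAut.conj h).toMonoidHom.comp (Subgroup.inclusion hE'H)).codRestrict _ fun e => by
        rw [← hh, Sylow.coe_subgroup_smul]
        exact ⟨_, hT' e.2, rfl⟩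
    have hc : Function.Injective c := fun a b hab =>
      Subgroup.inclusion_injective hE'H ((MulAut.conj h).injective (congrArg Subtype.val hab))
    have h1 := hrank c.range ⟨⟨by
        rintro ⟨_, a, rfl⟩ ⟨_, b, rfl⟩
        refine Subtype.ext ?_
        show c a * c b = c b * c a
        rw [← map_mul, ← map_mul, hE'e.1.is_comm.comm a b]⟩⟩ (by
      rintro _ ⟨a, rfl⟩
      rw [← map_pow, show a ^ 3 = 1 from Subtype.ext (hE'e.2 a a.2), map_one])
    rw [← Nat.card_congr (MonoidHom.ofInjective hc).toEquiv, hE'3] at h1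
    norm_num at h1
  have hp5 : 5 ≤ p := by
    have h1 := hp.two_le
    by_contra h
    have : p = 4 := by omega
    subst this
    norm_num at hp
  have hP := rank_three_alternative (H := H) inferInstance hp hp5
    (fun s hs hd => hH s hs hd) T hrank (E := E'.subgroupOf H) ⟨⟨by
      rintro ⟨a, ha⟩ ⟨b, hb⟩
      exact Subtype.ext (Subtype.ext (show (a : S) * b = b * a from
        congrArg Subtype.val (hE'e.1.is_comm.comm ⟨(a : S), ha⟩ ⟨(b : S), hb⟩)))⟩⟩
    (fun a ha => Subtype.ext (hE'e.2 a ha)) (by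
      rw [Nat.card_congr (Subgroup.subgroupOfEquivOfLe hE'H).toEquiv, hE'3]
      exact Nat.pow_lt_pow_right hp.one_lt (by norm_num))
  simp only [PRankLE, not_forall, not_le] at hP
  obtain ⟨A, hAc, hAe, hA⟩ := hP
  obtain ⟨B, hBn, hBc, hBe, hB⟩ := CfsgLib.PGroup.exists_normal_elementary_cube (p := p) hp2
    CfsgLib.Constrained.isPGroup_pCore hAc hAe hA
  set R := (pCore p H).map H.subtype with hRd
  set F := B.map (H.subtype.comp (pCore p H).subtype) with hFd
  refine hcount (F := F) hp hp2 ⟨⟨⟨?_⟩⟩, ?_⟩ ?_ ?_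
  · rintro ⟨_, a, ha, rfl⟩ ⟨_, b, hb, rfl⟩
    refine Subtype.ext ?_
    show (H.subtype.comp (pCore p H).subtype) a * (H.subtype.comp (pCore p H).subtype) b =
      (H.subtype.comp (pCore p H).subtype) b * (H.subtype.comp (pCore p H).subtype) a
    rw [← map_mul, ← map_mul, show a * b = b * a from congrArg Subtype.val (hBc.is_comm.comm ⟨a, ha⟩ ⟨b, hb⟩)]
  · rintro _ ⟨a, ha, rfl⟩
    rw [← map_pow, hBe a ha, map_one]
  · rw [← hB]
    exact (Nat.card_congr (B.equivMapOfInjective _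
      (H.subtype_injective.comp (pCore p H).subtype_injective)).toEquiv).symm
  refine relIndex_fix_le h2 hp5 hxb3 hW.le (R := R.map r)
    ((CfsgLib.Constrained.isPGroup_pCore.map _).map _) ?_ hCmap ?_
  · rintro _ ⟨_, ⟨a, ha, rfl⟩, rfl⟩
    refine ⟨x * a * x⁻¹, ⟨⟨x, hQH hxQ⟩ * a * ⟨x, hQH hxQ⟩⁻¹, ?_, rfl⟩, by rw [map_mul, map_mul, map_inv]; rfl⟩
    exact (inferInstance : (pCore p H).Normal).conj_mem a ha _
  · rintro _ ⟨_, ⟨a, -, rfl⟩, rfl⟩
    exact ⟨(a : H), ⟨(a : H), a.2, rfl⟩, rfl⟩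

end CfsgLib.FourCommutator
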